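import Cfsg.Agent.H545.EA.Stmts

/-!
# S3499, V-ALT, `EA11` from the row `NAT2` (task 6230)
-/

set_option autoImplicit false

namespace Cfsg.Agent.H128.EA

open Subgroup Cfsg Cfsg.Agent.H284 Cfsg.Agent.H419.EP Cfsg.Agent.H614.AMod Cfsg.Agent.H964.AltMod
open Cfsg.Agent.H545.EA
open scoped MatrixGroups

/-- the statement of task 6230 -/
def NAT2 : Prop := ∀ {Q : Type} [Group Q] [Finite Q], IsSimpleGroup Q → ∀ {A : Subgroup Q} {Γ : Subgroup (MulAut Q)},
    EPT A Γ → ∀ {F : Type} [Field F] [Fintype F] {ι : Type} [Fintype ι] [DecidableEq ι] {Qf : (ι → F) → F}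
    (m : Model Q (Cfsg.Geo.omegaGL Qf)), Cfsg.Geo.IsNondegenerateQuadraticForm Qf → ∀ {P : Subgroup (GL ι F)},
    Cfsg.Geo.IsResidualCore (m.hat A) P → Nat.card F = 2 → ∀ {c : ℕ}, 9 ≤ c → c ≠ 10 →
    ∀ (φ : P ≃* alternatingGroup (Fin c)) {w : Fin c → Fin c → (ι → F)}, NatM (rep φ) w → False

variable {Q : Type} [Group Q] [Finite Q] {A : Subgroup Q} {Γ : Subgroup (MulAut Q)} {ι : Type} [Fintype ι]
    [DecidableEq ι] {F : Type} [Field F] [Fintype F] {S P : Subgroup (GL ι F)}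

/-- the reduction to orthogonal groups over the prime field -/
theorem red (b : Big A Γ S P) {c : ℕ} (hc : 8 ≤ c) (f : P ≃* alternatingGroup (Fin c)) {w : Fin c → Fin c → (ι → F)}
    (hw : NatM (rep f) w) (p : ℕ) [hp : Fact p.Prime] [CharP F p] (h : p = 2 ∨ H915.LD.FixQ P) :
    Fintype.card F = p ∧ ∃ Qf : (ι → F) → F, Cfsg.Geo.IsNondegenerateQuadraticForm Qf ∧ S = Cfsg.Geo.omegaGL Qf := by
  have hC := H915.LD.core_of_residual b.core
  have h8 : 8 ≤ Fintype.card (Fin c) := by rw [Fintype.card_fin]; exact hc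
  have hcard : Fintype.card F = p := card_eq hC h8 hw p
  refine ⟨hcard, ?_⟩
  have hforms : H915.LD.FixQ P ∨ H915.LD.FixA P := hC.forms_of_sd (sd hC h8 hw)
  rcases b.kind with ⟨-, -, nq, ns, -⟩ | ⟨g, -, -, h3, -, nq, -⟩ | ⟨q, hq, σ, g, -, -, -, -, -, -⟩ |
    ⟨Qf, hQ, hS, -, -⟩
  · rcases hforms with h1 | h1
    · exact absurd h1 nq
    · exact absurd h1 ns
  · rcases h with rfl | h
    · rw [hcard] at h3
      omega
    · exact absurd h nq
  · exfalso
    rw [hcard] at hq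
    exact hp.out.not_isSquare ⟨q, by rw [hq, pow_two]⟩
  · exact ⟨Qf, hQ, hS⟩

/-- **`EA11` from `NAT2`** -/
theorem ea11_of (H : NAT2) : EA11 := by
  intro Q _ _ A Γ ι _ _ F _ _ S P b c hc h2 f w hw
  haveI : CharP F 2 := CharTwo.of_one_ne_zero_of_two_eq_zero one_ne_zero h2
  haveI : Fact (Nat.Prime 2) := ⟨Nat.prime_two⟩
  obtain ⟨hcard, Qf, hQ, rfl⟩ := red b (by omega) f hw 2 (Or.inl rfl)
  exact H b.simple b.ept b.m hQ b.core (by rw [Nat.card_eq_fintype_card, hcard]) (by omega) (by omega) f hw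

end Cfsg.Agent.H128.EA
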