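import Cfsg.Agent.H128.EA.Eleven
import Cfsg.Agent.H951.Nt.Kill

/-!
# S3499, V-ALT: `EA11`
-/

set_option autoImplicit false

namespace Cfsg.Agent.H128.EA

theorem nat2 : NAT2 := fun hs _ _ h _ _ _ _ _ _ _ m hQ _ hP hF _ hc hc10 φ _ hw =>
  Cfsg.Agent.H951.Nt.nat2 hs h m hQ hP hF hc hc10 φ hw

/-- **`EA11`** -/
theorem ea11 : Cfsg.Agent.H545.EA.EA11 := ea11_of nat2

end Cfsg.Agent.H128.EA
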